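import Cfsg.Agent.Lib.ReflectionsSpinor.PSpAutMain

/-!
# Transvection-preserving automorphisms of `PSp_{2m}(F)` are semilinear

This is the second half of `PSpAut.exists_semiAut`, valid also for `Sp_4(2^f)`.
-/

set_option autoImplicit false
set_option linter.unusedSectionVars false

open Matrix
open CfsgLib.ClassicalLinear CfsgLib.ReflectionsSpinor CfsgLib.ReflectionsSpinor.PSpAut

namespace CfsgLib.Parabolic.PSpAutTr

universe u

variable {m : ℕ} {F : Type u} [Field F] [Fintype F]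

local notation "V" => (Fin m ⊕ Fin m → F)
local notation "M2" => Matrix (Fin m ⊕ Fin m) (Fin m ⊕ Fin m) F
local notation "Sp" => Matrix.symplecticGroup (Fin m) F
local notation "ω" => Cfsg.sympForm m F
local notation "PS" => Cfsg.PSp m F

/-- An automorphism preserving the transvections is semilinear. -/
theorem exists_semiAut_of_isTr (hm : 2 ≤ m) (φ : MulAut PS) (hφ : ∀ x, IsTr x → IsTr (φ x))
    (hφ' : ∀ x, IsTr x → IsTr (φ.symm x)) :
    ∃ (g : ↥(Cfsg.GSp m F)) (σ : F ≃+* F), φ = semiAut g σ := by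
  classical
  have hex : ∀ w : V, ∃ v : V, ∃ b : F, w ≠ 0 → v ≠ 0 ∧ b ≠ 0 ∧ φ (T w 1) = T v b := by
    intro w
    by_cases hw : w = 0
    · exact ⟨0, 0, fun h => absurd hw h⟩
    · obtain ⟨v, b, hv, hb, he⟩ := hφ (T w 1) ⟨w, 1, hw, one_ne_zero, rfl⟩
      exact ⟨v, b, fun _ => ⟨hv, hb, he⟩⟩
  choose pt al hpt using hex
  have horth : ∀ w u, w ≠ 0 → u ≠ 0 → (ω (pt w) (pt u) = 0 ↔ ω w u = 0) := by
    intro w u hw hu
    obtain ⟨a1, a2, a3⟩ := hpt w hw
    obtain ⟨b1, b2, b3⟩ := hpt u hu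
    rw [← commute_T_T_iff hm a1 b1 a2 b2, ← commute_T_T_iff hm hw hu one_ne_zero one_ne_zero, ← a3, ← b3,
      ← map_mul, ← map_mul, φ.injective.eq_iff]
  have hsurj : ∀ u, u ≠ 0 → ∃ w, w ≠ 0 ∧ u ∈ Submodule.span F ({pt w} : Set V) := by
    intro u hu
    obtain ⟨w, a, hw, ha, he⟩ := hφ' (T u 1) ⟨u, 1, hu, one_ne_zero, rfl⟩
    obtain ⟨a1, a2, a3⟩ := hpt w hw
    refine ⟨w, hw, line_of_centralizer hm a1 hu a2 one_ne_zero fun x hx => ?_⟩
    obtain ⟨x', rfl⟩ := φ.surjective x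
    rw [← a3, ← map_mul, ← map_mul, φ.injective.eq_iff] at hx
    have h2 : φ (T w a) = T u 1 := by rw [← he, MulEquiv.apply_symm_apply]
    rw [← h2, ← map_mul, ← map_mul, φ.injective.eq_iff]
    have := (centralizer_of_line hm hw one_ne_zero ha one_ne_zero x').1 hx
    rwa [one_smul] at this
  have hspan : ∀ (w : V) (S : Finset V), w ≠ 0 → (∀ s ∈ S, s ≠ 0) →
      (w ∈ Submodule.span F (S : Set V) ↔ pt w ∈ Submodule.span F (pt '' (S : Set V))) := by
    intro w S hw hS
    rw [mem_span_iff_orth, mem_span_iff_orth]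
    constructor
    · intro h u hu
      by_cases hu0 : u = 0
      · rw [hu0, ← zero_smul F (0 : V), sympForm_smul_right, zero_mul]
      obtain ⟨u', hu', he⟩ := hsurj u hu0
      obtain ⟨c, hc⟩ := Submodule.mem_span_singleton.1 he
      have hc0 : c ≠ 0 := fun h => hu0 (by rw [← hc, h, zero_smul])
      rw [← hc, sympForm_smul_right, (horth w u' hw hu').2 (h u' fun s hs => ?_), mul_zero]
      have := hu (pt s) ⟨s, hs, rfl⟩
      rw [← hc, sympForm_smul_right] at this
      exact (horth s u' (hS s hs) hu').1 ((mul_eq_zero.1 this).resolve_left hc0)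
    · intro h u hu
      by_cases hu0 : u = 0
      · rw [hu0, ← zero_smul F (0 : V), sympForm_smul_right, zero_mul]
      refine (horth w u hw hu0).1 (h (pt u) ?_)
      rintro _ ⟨s, hs, rfl⟩
      exact (horth s u (hS s hs) hu0).2 (hu s hs)
  obtain ⟨g, σ, hgσ⟩ := exists_semilinear_of_span (by rw [Fintype.card_sum, Fintype.card_fin]; omega) pt
    (fun w hw => (hpt w hw).1) hspan
  have hg : g ∈ Cfsg.GSp m F := by
    refine CfsgLib.Geometric.Symp.mem_similarityGroup_of_orth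
      (CfsgLib.Geometric.isSymplecticForm_sympForm m F) fun u v huv => ?_
    obtain ⟨u', rfl⟩ : ∃ u', σ ∘ u' = u := ⟨σ.symm ∘ u, funext fun i => σ.apply_symm_apply _⟩
    obtain ⟨v', rfl⟩ : ∃ v', σ ∘ v' = v := ⟨σ.symm ∘ v, funext fun i => σ.apply_symm_apply _⟩
    rw [sympForm_map, map_eq_zero] at huv
    simp only [CfsgLib.Geometric.ap_def]
    by_cases hu : u' = 0
    · subst hu
      rw [show σ ∘ (0 : V) = 0 from funext fun i => map_zero σ, Matrix.mulVec_zero, ← zero_smul F (0 : V),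
        sympForm_smul_left, zero_mul]
    by_cases hv : v' = 0
    · subst hv
      rw [show σ ∘ (0 : V) = 0 from funext fun i => map_zero σ, Matrix.mulVec_zero, ← zero_smul F (0 : V),
        sympForm_smul_right, zero_mul]
    obtain ⟨c, hc, hcu⟩ := hgσ u' hu
    obtain ⟨d, hd, hdv⟩ := hgσ v' hv
    have := (horth u' v' hu hv).2 huv
    rw [hcu, hdv, sympForm_smul_left, sympForm_smul_right] at this
    simpa [hc, hd] using this
  refine ⟨⟨g, hg⟩, σ, ?_⟩
  set θ := (semiAut ⟨g, hg⟩ σ)⁻¹ * φ with hθ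
  suffices θ = 1 by
    rw [hθ, inv_mul_eq_one] at this
    exact this.symm
  have hθT : ∀ w, w ≠ 0 → ∃ b : F, b ≠ 0 ∧ θ (T w 1) = T w b := by
    intro w hw
    obtain ⟨a1, a2, a3⟩ := hpt w hw
    obtain ⟨c, hc, hcw⟩ := hgσ w hw
    -- the scalar relating the semilinear image of a transvection
    obtain ⟨k, hk, hke⟩ : ∃ k : F, k ≠ 0 ∧ ∀ b : F,
        semiHom ⟨g, hg⟩ σ (spT w b) = spT ((Units.val g : M2) *ᵥ (σ ∘ w)) (σ b * k) := by
      obtain ⟨k, hk, hk1⟩ := semiHom_spT ⟨g, hg⟩ σ w (1 : F)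
      refine ⟨k, hk, fun b => ?_⟩
      obtain ⟨k', hk', hkb⟩ := semiHom_spT ⟨g, hg⟩ σ w b
      obtain ⟨x, hx⟩ := exists_omega_one hw
      obtain ⟨e, he⟩ := (⟨g, hg⟩ : ↥(Cfsg.GSp m F)).2
      have hgw : (Units.val g : M2) *ᵥ (σ ∘ w) ≠ 0 := by
        intro h0
        have := congrArg ((Units.val g⁻¹ : M2) *ᵥ ·) h0
        simp only [Matrix.mulVec_mulVec, Units.inv_mul, Matrix.one_mulVec, Matrix.mulVec_zero] at this
        exact hw (funext fun i => (map_eq_zero σ).1 (congrFun this i))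
      have key : ∀ (b k : F), semiHom ⟨g, hg⟩ σ (spT w b) = spT ((Units.val g : M2) *ᵥ (σ ∘ w)) (σ b * k) →
          σ b * k * (e : F) = σ b := by
        intro b k h
        have h1 := congrArg (fun t : Sp => t • ((Units.val g : M2) *ᵥ (σ ∘ x))) h
        simp only [spT_smul] at h1
        rw [sp_smul_eq, coe_semiHom, Matrix.mulVec_mulVec, Matrix.mul_assoc, Units.inv_mul, Matrix.mul_one,
          ← Matrix.mulVec_mulVec, gmap_mulVec, ← sp_smul_eq (spT w b), spT_smul, hx, mul_one, he, sympForm_map,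
          hx, map_one, mul_one, show σ ∘ (x + b • w) = σ ∘ x + σ b • (σ ∘ w) from funext fun i => by simp,
          Matrix.mulVec_add, Matrix.mulVec_smul, add_right_inj] at h1
        exact (smul_left_injective F hgw h1).symm
      rcases eq_or_ne b 0 with rfl | hb
      · rw [spT_zero, map_one, map_zero, zero_mul, spT_zero]
      · have e1 := key 1 k hk1
        rw [map_one, one_mul] at e1
        have e2 := key b k' hkb
        have hσb : σ b ≠ 0 := by simpa using hb
        have : k' = k := mul_right_cancel₀ e.ne_zero (mul_left_cancel₀ hσb (by rw [← mul_assoc, e2, e1, mul_one]))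
        rw [hkb, this]
    refine ⟨σ.symm (c ^ 2 * al w * k⁻¹), by simp [hc, a2, hk], ?_⟩
    rw [hθ, MulAut.mul_apply, a3]
    apply (semiAut ⟨g, hg⟩ σ).injective
    rw [MulAut.apply_inv_self, semiAut_cl, hke, σ.apply_symm_apply, inv_mul_cancel_right₀ hk, ← spT_smul_vec,
      ← hcw]
  refine aut_ext fun s => ?_
  obtain ⟨s', hs'⟩ := cl_surjective (θ (cl s))
  rw [← hs', MulAut.one_apply]
  have hline : ∀ w : V, ∃ r : F, (s⁻¹ * s') • w = r • w := by
    intro w
    by_cases hw : w = 0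
    · exact ⟨1, by rw [hw, smul_zero, smul_zero]⟩
    have hsw : s • w ≠ 0 := fun h => hw (by simpa using congrArg (s⁻¹ • ·) h)
    obtain ⟨b1, hb1, e1⟩ := hθT w hw
    obtain ⟨b2, hb2, e2⟩ := hθT (s • w) hsw
    have h1 := congrArg θ (conj_T s w 1)
    rw [map_mul, map_mul, map_inv, ← hs', e1, e2, conj_T] at h1
    have hs'w : s' • w ≠ 0 := fun h => hw (by simpa using congrArg (s'⁻¹ • ·) h)
    obtain ⟨r, hr⟩ := Submodule.mem_span_singleton.1 (T_line hm hs'w hb1 h1)
    exact ⟨r, by rw [mul_smul, ← hr, smul_comm (s⁻¹) r, ← mul_smul, inv_mul_cancel, one_smul]⟩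
  refine ((cl_eq_cl_iff (by omega)).2 ?_).symm
  have := eq_one_or_neg_of_forall_smul (by omega) hline
  have h : (s' : M2) = (s : M2) * ((s⁻¹ * s' : Sp) : M2) := by
    rw [← Submonoid.coe_mul, mul_inv_cancel_left]
  rcases this with h1 | h1
  · left; rw [h, h1, Matrix.mul_one]
  · right; rw [h, h1, Matrix.mul_neg, Matrix.mul_one]

end CfsgLib.Parabolic.PSpAutTr
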