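import Cfsg.Agent.Lib.Parabolic.SpFourStar
import Cfsg.Agent.Lib.Parabolic.PSpAutTransfer
import Cfsg.Agent.Lib.CharTheory.Orthogonality

/-!
# The exceptional automorphism of `PSp_4(2^f)`

`starAut` comes from `g ↦ g*`. It is not semilinear, its square is the Frobenius, and together
with the semilinear automorphisms it gives all automorphisms.
-/

set_option autoImplicit false
set_option linter.unusedSectionVars false

open Matrix
open CfsgLib.ClassicalLinear CfsgLib.ReflectionsSpinor CfsgLib.ReflectionsSpinor.PSpAut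
open Cfsg.Lie (star4)

namespace CfsgLib.Parabolic.SpFour

universe u

variable {F : Type u} [Field F]

local notation "V" => (Fin 2 ⊕ Fin 2 → F)
local notation "M2" => Matrix (Fin 2 ⊕ Fin 2) (Fin 2 ⊕ Fin 2) F
local notation "Sp" => Matrix.symplecticGroup (Fin 2) F
local notation "PS" => Cfsg.PSp 2 F

/-- The hyperbolic pairs are `(0, 3)` and `(1, 2)`. -/
def four : Fin 2 ⊕ Fin 2 ≃ Fin 4 where
  toFun := Sum.elim ![0, 1] ![3, 2]
  invFun := ![.inl 0, .inl 1, .inr 1, .inr 0]
  left_inv := by decide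
  right_inv := by decide

variable [CharP F 2]

theorem J_four : (Matrix.J (Fin 2) F).submatrix four.symm four.symm = anti := by
  ext i j
  fin_cases i <;> fin_cases j <;>
    simp [four, Matrix.J, anti, Fin.rev, CharTwo.neg_eq]

theorem mem_iff_rel {M : M2} : M ∈ Sp ↔ Rel (M.submatrix four.symm four.symm) := by
  have key : ∀ A B C : M2, (A * B * C).submatrix four.symm four.symm = A.submatrix four.symm four.symm *
      B.submatrix four.symm four.symm * C.submatrix four.symm four.symm := fun A B C => by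
    rw [Matrix.submatrix_mul_equiv, Matrix.submatrix_mul_equiv]
  constructor
  · intro h
    refine ⟨?_, ?_⟩
    · rw [Matrix.transpose_submatrix, ← J_four, ← key, SymplecticGroup.mem_iff'.1 h]
    · rw [Matrix.transpose_submatrix, ← J_four, ← key, SymplecticGroup.mem_iff.1 h]
  · intro h
    refine SymplecticGroup.mem_iff.2 ?_
    have h1 := h.2
    rw [Matrix.transpose_submatrix, ← J_four, ← key] at h1
    have h2 := congrArg (fun X => Matrix.submatrix X four four) h1
    simpa using h2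

/-- `g ↦ g*` in block coordinates. -/
def starM (M : Matrix (Fin 2 ⊕ Fin 2) (Fin 2 ⊕ Fin 2) F) : Matrix (Fin 2 ⊕ Fin 2) (Fin 2 ⊕ Fin 2) F :=
  (star4 (M.submatrix four.symm four.symm)).submatrix four four

theorem starM_sub (M : M2) :
    (starM M).submatrix four.symm four.symm = star4 (M.submatrix four.symm four.symm) := by
  simp [starM]

/-- `g ↦ g*` on the symplectic group. -/
def starHom : Matrix.symplecticGroup (Fin 2) F →* Matrix.symplecticGroup (Fin 2) F where
  toFun s := ⟨starM (s : M2), mem_iff_rel.2 (by rw [starM_sub]; exact (mem_iff_rel.1 s.2).star)⟩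
  map_one' := Subtype.ext (by simp [starM, star4_one])
  map_mul' s t := Subtype.ext (by
    show starM ((s : M2) * (t : M2)) = starM (s : M2) * starM (t : M2)
    rw [starM, starM, starM, ← Matrix.submatrix_mul_equiv _ _ four.symm four.symm four.symm,
      star4_mul (mem_iff_rel.1 s.2) (mem_iff_rel.1 t.2), Matrix.submatrix_mul_equiv])

theorem coe_starHom (s : Sp) : (starHom s : M2) = starM (s : M2) := rfl

theorem starHom_starHom (s : Sp) : (starHom (starHom s) : M2) = (s : M2).map (fun x => x ^ 2) := by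
  rw [coe_starHom, coe_starHom, starM, starM_sub, star4_star4 (mem_iff_rel.1 s.2)]
  ext a b
  simp

theorem starHom_injective : Function.Injective (starHom : Sp →* Sp) := fun s t h => by
  have h1 : (starHom (starHom s) : M2) = (starHom (starHom t) : M2) := by rw [h]
  rw [starHom_starHom, starHom_starHom] at h1
  exact Subtype.ext (Matrix.map_injective CharTwo.sq_injective h1)

variable [Fintype F]

theorem starHom_bijective : Function.Bijective (starHom : Sp →* Sp) :=
  ⟨starHom_injective, Finite.injective_iff_surjective.1 starHom_injective⟩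

variable (F) in
/-- The exceptional automorphism. -/
noncomputable def starAut : MulAut (Cfsg.PSp 2 F) :=
  QuotientGroup.congr _ _ (MulEquiv.ofBijective (starHom : Sp →* Sp) starHom_bijective)
    (Subgroup.characteristic_iff_map_eq.1 inferInstance _)

theorem starAut_cl (s : Sp) : starAut F (cl s) = cl (starHom s) := rfl

theorem cl_injective : Function.Injective (cl : Sp → PS) := by
  intro s t h
  rcases (cl_eq_cl_iff (by omega)).1 h with h' | h'
  · exact (Subtype.ext h').symm
  · refine (Subtype.ext ?_).symm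
    rw [h']
    ext i j
    exact CharTwo.neg_eq _

theorem cl_two : (2 : F) = 0 := CharTwo.two_eq_zero

/-- In characteristic two all transvections are conjugate. -/
theorem isConj_of_isTr {x y : PS} (hx : IsTr x) (hy : IsTr y) : IsConj x y := by
  have norm : ∀ {z : PS}, IsTr z → ∃ w : V, w ≠ 0 ∧ z = T w 1 := by
    rintro z ⟨w, a, hw, ha, rfl⟩
    obtain ⟨d, hd⟩ := FiniteField.isSquare_of_char_two (ringChar.eq F 2) a
    have hd0 : d ≠ 0 := by rintro rfl; exact ha (by rw [hd, mul_zero])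
    exact ⟨d • w, smul_ne_zero hd0 hw, congrArg cl (by rw [spT_smul_vec, mul_one, hd, sq])⟩
  obtain ⟨w, hw, rfl⟩ := norm hx
  obtain ⟨u, hu, rfl⟩ := norm hy
  obtain ⟨g, hg⟩ := exists_sp_smul_eq hw hu
  exact isConj_iff.2 ⟨cl g, by rw [conj_T, hg]⟩

theorem isTr_of_isConj {x y : PS} (h : IsConj x y) (hx : IsTr x) : IsTr y := by
  obtain ⟨c, rfl⟩ := isConj_iff.1 h
  exact T_conj_isTr hx c

/-- The element `1 + β (E₀₁ + E₁₀)` in the upper right block. -/
noncomputable def aTwo (β : F) : Matrix.symplecticGroup (Fin 2) F :=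
  upS !![0, β; β, 0] (by ext i j; fin_cases i <;> fin_cases j <;> simp)

theorem isConj_aTwo {β : F} (hβ : β ≠ 0) : IsConj (cl (aTwo (1 : F))) (cl (aTwo β)) := by
  let d : Fin 2 ⊕ Fin 2 → F := Sum.elim ![β, 1] ![β⁻¹, 1]
  have hd : Matrix.diagonal d ∈ Sp := by
    refine SymplecticGroup.mem_iff.2 ?_
    rw [Matrix.diagonal_transpose]
    ext i j
    rw [Matrix.mul_diagonal, Matrix.diagonal_mul]
    rcases i with i | i <;> rcases j with j | j <;> fin_cases i <;> fin_cases j <;>
      simp [Matrix.J, d, hβ]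
  refine isConj_iff.2 ⟨cl ⟨_, hd⟩, ?_⟩
  rw [← cl_mul, mul_inv_eq_iff_eq_mul, ← cl_mul]
  refine congrArg cl (Subtype.ext ?_)
  rw [Submonoid.coe_mul, Submonoid.coe_mul, aTwo, aTwo, coe_upS, coe_upS]
  ext i j
  rcases i with i | i <;> rcases j with j | j <;> fin_cases i <;> fin_cases j <;>
    simp [d, Matrix.mul_diagonal, Matrix.diagonal_mul, hβ]

/-- `starAut` sends a transvection to the element `aTwo 1`. -/
theorem starAut_T : starAut F (T (Pi.single (.inl 0) 1 : V) 1) = cl (aTwo (1 : F)) := by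
  rw [starAut_cl]
  refine congrArg cl (Subtype.ext ?_)
  have hM : (spT (Pi.single (.inl 0) 1 : V) (1 : F) : M2) =
      Matrix.fromBlocks 1 (Matrix.single 0 0 1) 0 1 := by
    refine Matrix.ext_of_mulVec_single fun j => ?_
    rw [← sp_smul_eq, spT_smul, CfsgLib.Omega.sympForm_eq_sum, Matrix.fromBlocks_mulVec]
    funext i
    rcases i with i | i <;> rcases j with j | j <;> fin_cases i <;> fin_cases j <;>
      simp [Pi.single_apply, Matrix.mulVec, dotProduct, Fin.sum_univ_two, Matrix.one_apply, Matrix.vecHead, Matrix.vecTail]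
  rw [coe_starHom, hM, aTwo, coe_upS]
  ext i j
  rw [starM, Matrix.submatrix_apply, star4_apply]
  rcases i with i | i <;> rcases j with j | j <;> fin_cases i <;> fin_cases j <;>
    simp [four, Cfsg.Lie.pairOf, Matrix.one_apply]

theorem not_isTr_aTwo : ¬ IsTr (cl (aTwo (1 : F))) := by
  rintro ⟨w, a, -, -, h⟩
  have h1 := cl_injective h
  have key : ∀ x : V, aTwo (1 : F) • x = x + (a * Cfsg.sympForm 2 F x w) • w := fun x => by
    rw [h1, spT_smul]
  have e : ∀ x : V, aTwo (1 : F) • x = x + Sum.elim ![x (.inr 1), x (.inr 0)] 0 := fun x => by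
    rw [sp_smul_eq, aTwo, coe_upS, Matrix.fromBlocks_mulVec]
    funext i
    rcases i with i | i <;> fin_cases i <;> simp [Matrix.mulVec, dotProduct, Fin.sum_univ_two, Matrix.vecHead, Matrix.vecTail]
  have k0 := key (Pi.single (.inr 1) 1)
  have k1 := key (Pi.single (.inr 0) 1)
  rw [e, add_right_inj] at k0 k1
  generalize a * Cfsg.sympForm 2 F (Pi.single (.inr 1) 1) w = c0 at k0
  generalize a * Cfsg.sympForm 2 F (Pi.single (.inr 0) 1) w = c1 at k1
  have a0 := congrFun k0 (.inl 0)
  have a1 := congrFun k0 (.inl 1)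
  have b1 := congrFun k1 (.inl 1)
  simp at a0 a1 b1
  have hc0 : c0 ≠ 0 := fun hc => by rw [hc, zero_mul] at a0; exact one_ne_zero a0
  rcases a1 with h | h
  · exact hc0 h
  · rw [h, mul_zero] at b1; exact one_ne_zero b1

theorem not_isTr_starAut_T : ¬ IsTr (starAut F (T (Pi.single (.inl 0) 1 : V) 1)) := by
  rw [starAut_T]; exact not_isTr_aTwo

/-- An element centralised by a Sylow subgroup, conjugate to the image of a transvection. -/
theorem exists_central_rep (φ : MulAut PS) {x : PS} (hx : IsTr x) :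
    ∃ s ∈ uniU 2 F, (∀ u ∈ uniU 2 F, s * u = u * s) ∧ IsConj (cl s) (φ x) := by
  set w₀ : V := Pi.single (.inl 0) 1 with hw₀def
  have hw₀ : w₀ ≠ 0 := Pi.single_ne_zero_iff.2 one_ne_zero
  have hconj : IsConj (φ (T w₀ 1)) (φ x) :=
    φ.toMonoidHom.map_isConj (isConj_of_isTr ⟨w₀, 1, hw₀, one_ne_zero, rfl⟩ hx)
  haveI : Fact (Nat.Prime 2) := ⟨Nat.prime_two⟩
  obtain ⟨P, hP⟩ := exists_sylow_image (m := 2) (F := F) 2
  obtain ⟨y, hy⟩ := MulAction.exists_smul_eq PS P (φ • P)
  have hset : (MulAut.conj y) '' (P : Set PS) = φ '' (P : Set PS) :=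
    congrArg (fun Q : Sylow 2 PS => (Q : Set PS)) hy
  have hfix : ∀ u ∈ uniU 2 F, u • w₀ = w₀ := by
    intro u hu
    obtain ⟨h21, hu1⟩ := mem_uniU.1 hu
    funext i
    rw [sp_smul_eq, hw₀def, Matrix.mulVec_single_one, Matrix.col_apply, Pi.single_apply]
    rcases i with i | i
    · have h := hu1 i 0 (Fin.zero_le i)
      simpa [Matrix.toBlocks₁₁] using h
    · have h := congrFun (congrFun h21 i) 0
      simpa [Matrix.toBlocks₂₁] using h
  have hx0P : T w₀ (1 : F) ∈ (P : Set PS) := by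
    rw [hP]
    refine ⟨spT w₀ 1, ?_, rfl⟩
    have h2 : ∀ v : V, spT w₀ (1 : F) • v = v + Cfsg.sympForm 2 F v w₀ • w₀ := fun v => by
      rw [spT_smul, one_mul]
    show spT w₀ 1 ∈ uniU 2 F
    have hM : ∀ (j : Fin 2) (i : Fin 2 ⊕ Fin 2),
        (spT w₀ (1 : F) : M2) i (.inl j) = (1 : M2) i (.inl j) := fun j i => by
      have h3 := congrFun (h2 (Pi.single (.inl j) 1)) i
      rw [sp_smul_eq, Matrix.mulVec_single_one, Matrix.col_apply] at h3
      rw [h3, CfsgLib.Omega.sympForm_eq_sum]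
      fin_cases j <;> simp [hw₀def, Matrix.one_apply, Pi.single_apply]
    rw [mem_uniU]
    refine ⟨?_, fun i j _ => ?_⟩
    · ext i j
      simpa [Matrix.toBlocks₂₁] using hM j (.inr i)
    · simpa [Matrix.toBlocks₁₁, Matrix.one_apply] using hM j (.inl i)
  have hx0c : ∀ z ∈ (P : Set PS), T w₀ 1 * z = z * T w₀ 1 := by
    rw [hP]
    rintro _ ⟨u, hu, rfl⟩
    exact ((commute_T_iff le_rfl hw₀ one_ne_zero u).2 (Or.inl (hfix u hu))).symm
  set z := y⁻¹ * φ (T w₀ 1) * y with hz
  have hzP : z ∈ (P : Set PS) := by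
    obtain ⟨c, hc, he⟩ := hset ▸ Set.mem_image_of_mem φ hx0P
    rw [hz, ← he, MulAut.conj_apply]
    simpa [mul_assoc] using hc
  have hzc : ∀ c ∈ (P : Set PS), z * c = c * z := by
    intro c hc
    obtain ⟨b, hb, he⟩ := hset ▸ Set.mem_image_of_mem (MulAut.conj y) hc
    have h1 := congrArg φ (hx0c b hb)
    rw [map_mul, map_mul, he, MulAut.conj_apply] at h1
    calc z * c = y⁻¹ * (φ (T w₀ 1) * (y * c * y⁻¹)) * y := by rw [hz]; group
      _ = y⁻¹ * (y * c * y⁻¹ * φ (T w₀ 1)) * y := by rw [h1]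
      _ = c * z := by rw [hz]; group
  rw [hP] at hzP hzc
  obtain ⟨s, hs, hsz⟩ := hzP
  refine ⟨s, hs, fun u hu => cl_injective ?_, IsConj.trans ?_ hconj⟩
  · have h1 := hzc (cl u) ⟨u, hu, rfl⟩
    rwa [← hsz, ← cl_mul, ← cl_mul] at h1
  · exact isConj_iff.2 ⟨y, by rw [hsz, hz]; group⟩

/-- The class of `1 + B` with `B` non-alternating and invertible is large. -/
theorem class_large {s : Sp} {α β : F} (hα : α ≠ 0) (hβ : β ≠ 0)
    (hs : (s : M2) = Matrix.fromBlocks 1 !![α, β; β, 0] 0 1) :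
    Nat.card F ^ (2 * 2) - 1 < Nat.card {y : PS // IsConj (cl s) y} := by
  classical
  set q := Nat.card F with hq
  have hC : ∀ g : Sp, g * s = s * g → g ∈ uniU 2 F := by
    intro g hg
    have h := congrArg (fun x : Sp => (x : M2)) hg
    simp only [Submonoid.coe_mul, hs] at h
    rw [← Matrix.fromBlocks_toBlocks (g : M2), Matrix.fromBlocks_multiply,
      Matrix.fromBlocks_multiply] at h
    obtain ⟨h11, h12, -, -⟩ := Matrix.fromBlocks_inj.1 h
    simp only [Matrix.mul_one, Matrix.one_mul, Matrix.mul_zero, add_zero, Matrix.zero_mul] at h11 h12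
    set A := (g : M2).toBlocks₁₁
    set X := (g : M2).toBlocks₁₂
    set Y := (g : M2).toBlocks₂₁ with hY
    set D := (g : M2).toBlocks₂₂
    set B : Matrix (Fin 2) (Fin 2) F := !![α, β; β, 0] with hB
    have hdet : IsUnit B.det := by
      rw [hB, Matrix.det_fin_two_of]
      exact isUnit_iff_ne_zero.2 (by simpa using hβ)
    have hY0 : Y = 0 := by
      have h0 : B * Y = 0 := add_left_cancel (a := A) (h11.symm.trans (add_zero A).symm)
      calc Y = B⁻¹ * (B * Y) := by rw [← Matrix.mul_assoc, Matrix.nonsing_inv_mul B hdet, Matrix.one_mul]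
        _ = 0 := by rw [h0, Matrix.mul_zero]
    obtain ⟨hAD, -⟩ := blocks_of_mem hY0
    have hAB : A * B = B * D := add_right_cancel (b := X) (h12.trans (add_comm _ _))
    have hDA : D * Aᵀ = 1 := mul_eq_one_comm.1 hAD
    have hABA : A * B * Aᵀ = B := by rw [hAB, Matrix.mul_assoc, hDA, Matrix.mul_one]
    have two : (2 : F) = 0 := CharTwo.two_eq_zero
    have e00 := congrFun (congrFun hABA 0) 0
    have e01 := congrFun (congrFun hABA 0) 1
    have e11 := congrFun (congrFun hABA 1) 1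
    simp [hB, Matrix.mul_apply, Fin.sum_univ_two] at e00 e01 e11
    have hc : A 1 0 = 0 := by
      refine (pow_eq_zero_iff two_ne_zero).1 ((mul_eq_zero.1 (?_ : α * A 1 0 ^ 2 = 0)).resolve_left hα)
      linear_combination e11 - A 1 0 * A 1 1 * β * two
    rw [hc] at e01
    have had : A 0 0 * A 1 1 = 1 := by
      refine mul_left_cancel₀ hβ ?_
      linear_combination e01
    have ha : A 0 0 = 1 := by
      refine CharTwo.sq_injective ?_
      show A 0 0 ^ 2 = (1 : F) ^ 2
      refine mul_left_cancel₀ hα ?_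
      linear_combination e00 - A 0 0 * A 0 1 * β * two
    rw [ha, one_mul] at had
    rw [mem_uniU]
    refine ⟨hY0, fun i j hij => ?_⟩
    change A i j = _
    fin_cases i <;> fin_cases j <;> simp_all
  have hle : Nat.card (Subgroup.centralizer ({cl s} : Set PS)) ≤ q ^ 4 := by
    rw [show q ^ 4 = Nat.card (uniU 2 F) by rw [card_uniU, hq]; norm_num]
    refine Nat.card_le_card_of_surjective
      (fun g : {g : uniU 2 F // cl (g : Sp) * cl s = cl s * cl (g : Sp)} =>
        (⟨cl (g.1 : Sp), Subgroup.mem_centralizer_singleton_iff.2 g.2⟩ :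
          Subgroup.centralizer ({cl s} : Set PS))) ?_ |>.trans
      (Nat.card_le_card_of_injective _ Subtype.val_injective)
    rintro ⟨c, hc⟩
    obtain ⟨g, rfl⟩ := cl_surjective c
    have hcomm := Subgroup.mem_centralizer_singleton_iff.1 hc
    exact ⟨⟨⟨g, hC g (cl_injective (by rw [cl_mul, cl_mul]; exact hcomm))⟩, hcomm⟩, rfl⟩
  rw [CfsgLib.CharTheory.card_isConj]
  have h := Subgroup.index_mul_card (Subgroup.centralizer ({cl s} : Set PS))
  have hcard : Nat.card PS = q ^ 4 * (q ^ 2 - 1) * (q ^ 4 - 1) := by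
    rw [← Nat.card_congr (Equiv.ofBijective _ ⟨cl_injective (F := F), cl_surjective⟩), card_sp,
      hq, Nat.card_eq_fintype_card]
    simp [Finset.prod_range_succ]
    ring
  rw [hcard] at h
  by_contra hno
  push Not at hno
  have h1 : q ^ 4 * (q ^ 2 - 1) * (q ^ 4 - 1) ≤ (q ^ 4 - 1) * q ^ 4 :=
    h ▸ Nat.mul_le_mul hno hle
  have hq2 : 2 ≤ q := Finite.one_lt_card
  have h4 : 2 ≤ q ^ 4 := hq2.trans (Nat.le_self_pow (by norm_num) _)
  have h3 : 4 ≤ q ^ 2 := by nlinarith
  have h5 : 0 < q ^ 4 * (q ^ 4 - 1) := Nat.mul_pos (by omega) (by omega)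
  have h6 : q ^ 4 * (q ^ 4 - 1) * (q ^ 2 - 1) ≤ q ^ 4 * (q ^ 4 - 1) * 1 := by
    rw [mul_one, mul_right_comm]; rwa [mul_comm (q ^ 4) (q ^ 4 - 1)]
  have h7 := Nat.le_of_mul_le_mul_left h6 h5
  omega

theorem class_eq {φ : MulAut PS} {x y : PS} (h : IsConj y (φ x)) :
    Nat.card {c : PS // IsConj y c} = Nat.card {c : PS // IsConj x c} := by
  refine (Nat.card_congr (φ.toEquiv.subtypeEquiv fun c => ?_)).symm
  constructor
  · intro hc
    exact h.trans (φ.toMonoidHom.map_isConj hc)
  · intro hc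
    have := φ.symm.toMonoidHom.map_isConj (h.symm.trans hc)
    simpa using this

/-- A transvection goes to a transvection or to the class of `aTwo 1`. -/
theorem isTr_or_isConj (φ : MulAut PS) {x : PS} (hx : IsTr x) :
    IsTr (φ x) ∨ IsConj (cl (aTwo (1 : F))) (φ x) := by
  obtain ⟨s, hs, hc, hconj⟩ := exists_central_rep φ hx
  obtain ⟨B, hB, hsM, hB0, -⟩ := centre_shape le_rfl hs hc
  have hBB : B = !![B 0 0, B 0 1; B 0 1, 0] := by
    ext i j
    fin_cases i <;> fin_cases j
    · rfl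
    · rfl
    · exact congrFun (congrFun hB 0) 1
    · exact hB0 1 1 (by simp) (by simp) (by simp)
  rw [hBB] at hsM
  by_cases hβ : B 0 1 = 0
  · left
    refine isTr_of_isConj hconj ⟨Pi.single (.inl 0) 1, B 0 0, Pi.single_ne_zero_iff.2 one_ne_zero,
      fun h0 => ?_, congrArg cl (sp_ext fun v => ?_)⟩
    · have h1 : s = 1 := Subtype.ext (by
        rw [hsM, hβ, h0, show (!![0, 0; 0, 0] : Matrix (Fin 2) (Fin 2) F) = 0 by
          ext i j; fin_cases i <;> fin_cases j <;> rfl, Matrix.fromBlocks_one]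
        rfl)
      rw [h1] at hconj
      have h2 : φ x = 1 := isConj_one_right.1 hconj
      obtain ⟨w, a, hw, ha, rfl⟩ := hx
      exact T_ne_one le_rfl hw ha (φ.injective (h2.trans (map_one φ).symm))
    · rw [sp_smul_eq, hsM, spT_smul, CfsgLib.Omega.sympForm_eq_sum, Matrix.fromBlocks_mulVec, hβ]
      funext i
      rcases i with i | i <;> fin_cases i <;>
        simp [Matrix.mulVec, dotProduct, Fin.sum_univ_two, Pi.single_apply, CharTwo.neg_eq, Matrix.vecHead, Matrix.vecTail]
  · by_cases hα : B 0 0 = 0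
    · right
      refine (isConj_aTwo hβ).trans ?_
      have : aTwo (B 0 1) = s := Subtype.ext (by rw [hsM, hα, aTwo, coe_upS])
      rwa [this]
    · exfalso
      have hl := class_large hα hβ hsM
      rw [class_eq hconj] at hl
      obtain ⟨w, a, hw, -, rfl⟩ := hx
      exact absurd hl (not_lt.2 (card_class_le le_rfl hw))

/-- Every automorphism of `PSp_4(2^f)` is semilinear, or `starAut` times a semilinear one. -/
theorem exists_semiAut_or_star (φ : MulAut PS) : ∃ (g : ↥(Cfsg.GSp 2 F)) (σ : F ≃+* F),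
    φ = semiAut g σ ∨ φ = starAut F * semiAut g σ := by
  have main : ∀ ψ : MulAut PS, (∃ x, IsTr x ∧ IsTr (ψ x)) →
      ∃ (g : ↥(Cfsg.GSp 2 F)) (σ : F ≃+* F), ψ = semiAut g σ := by
    rintro ψ ⟨x₀, hx₀, hx₀'⟩
    refine PSpAutTr.exists_semiAut_of_isTr le_rfl ψ
      (fun x hx => isTr_of_isConj (ψ.toMonoidHom.map_isConj (isConj_of_isTr hx₀ hx)) hx₀')
      (fun x hx => ?_)
    refine isTr_of_isConj (ψ.symm.toMonoidHom.map_isConj (isConj_of_isTr hx₀' hx)) ?_
    simpa using hx₀
  set t : PS := T (Pi.single (.inl 0) 1 : V) 1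
  have ht : IsTr t := ⟨_, _, Pi.single_ne_zero_iff.2 one_ne_zero, one_ne_zero, rfl⟩
  rcases isTr_or_isConj φ ht with h | h
  · obtain ⟨g, σ, e⟩ := main φ ⟨t, ht, h⟩
    exact ⟨g, σ, Or.inl e⟩
  · have hψ : IsTr (((starAut F)⁻¹ * φ) t) := by
      rw [← starAut_T (F := F)] at h
      have h1 := (starAut F).symm.toMonoidHom.map_isConj h
      refine isTr_of_isConj ?_ ht
      simpa using h1
    obtain ⟨g, σ, e⟩ := main ((starAut F)⁻¹ * φ) ⟨t, ht, hψ⟩
    exact ⟨g, σ, Or.inr (eq_mul_of_inv_mul_eq e)⟩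

theorem semiAut_ne_starAut_mul (g g' : ↥(Cfsg.GSp 2 F)) (σ σ' : F ≃+* F) :
    semiAut g σ ≠ starAut F * semiAut g' σ' := by
  intro h
  have e : starAut F = semiAut g σ * (semiAut g' σ')⁻¹ := eq_mul_inv_of_mul_eq h.symm
  rw [semiAut_inv, semiAut_mul] at e
  refine not_isTr_starAut_T (F := F) ?_
  rw [e]
  generalize g * gmapS σ (gmapS σ'⁻¹ g'⁻¹) = k
  obtain ⟨b, hb, hT⟩ := semiHom_spT k (σ * σ'⁻¹) (Pi.single (.inl 0) 1 : V) 1
  refine ⟨_, _, fun h0 => ?_, mul_ne_zero ((map_ne_zero (σ * σ'⁻¹)).2 one_ne_zero) hb,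
    (semiAut_cl _ _ _).trans (congrArg cl hT)⟩
  have h1 := congrArg ((Units.val k.1⁻¹ : M2) *ᵥ ·) h0
  simp only [Matrix.mulVec_mulVec, Units.inv_mul, Matrix.one_mulVec, Matrix.mulVec_zero] at h1
  simpa using congrFun h1 (.inl 0)

/-- The square of `starAut` is the Frobenius automorphism. -/
theorem starAut_sq : starAut F * starAut F = semiAut 1 (frobeniusEquiv F 2) := by
  refine aut_ext fun s => ?_
  rw [MulAut.mul_apply, starAut_cl, starAut_cl, semiAut_cl]
  refine congrArg cl (Subtype.ext ?_)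
  rw [starHom_starHom, coe_semiHom, OneMemClass.coe_one, inv_one, Units.val_one, Matrix.one_mul,
    Matrix.mul_one]
  ext i j
  simp [frobenius_def]

end CfsgLib.Parabolic.SpFour
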