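import Mathlib.Algebra.CharP.Two
import Mathlib.Tactic.LinearCombination
import Mathlib.Tactic.FinCases
import Cfsg.Prelude.Def_Sz

/-!
# The map `g ↦ g*` on four-by-four symplectic matrices in characteristic two

`star4` (two-by-two minors on `U/W`) is multiplicative on symplectic matrices and its square is
the entrywise squaring.
-/

set_option autoImplicit false

open Matrix
open Cfsg.Lie (star4 pairOf)

namespace CfsgLib.Parabolic.SpFour

variable {R : Type*} [CommRing R]

/-- The antidiagonal form matrix. -/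
def anti : Matrix (Fin 4) (Fin 4) R := Matrix.of fun i j => if j = Fin.rev i then 1 else 0

theorem anti_apply (i j : Fin 4) : (anti : Matrix (Fin 4) (Fin 4) R) i j =
    if j = Fin.rev i then 1 else 0 := rfl

theorem anti_pairOf (p : Fin 4) :
    (anti : Matrix (Fin 4) (Fin 4) R) (pairOf p).1 (pairOf p).2 = 0 := by
  fin_cases p <;> simp [anti, pairOf, Fin.rev]

theorem anti_transpose : (anti : Matrix (Fin 4) (Fin 4) R)ᵀ = anti := by
  ext i j
  fin_cases i <;> fin_cases j <;> simp [anti, Fin.rev]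

theorem anti_mul_self : (anti : Matrix (Fin 4) (Fin 4) R) * anti = 1 := by
  ext i j
  fin_cases i <;> fin_cases j <;> simp [anti, Matrix.mul_apply, Fin.sum_univ_four, Fin.rev]

/-- Rows and columns preserve the form. -/
def Rel (g : Matrix (Fin 4) (Fin 4) R) : Prop := gᵀ * anti * g = anti ∧ g * anti * gᵀ = anti

theorem Rel.transpose {g : Matrix (Fin 4) (Fin 4) R} (h : Rel g) : Rel gᵀ :=
  ⟨by rw [Matrix.transpose_transpose]; exact h.2, by rw [Matrix.transpose_transpose]; exact h.1⟩

theorem Rel.mul {g h : Matrix (Fin 4) (Fin 4) R} (hg : Rel g) (hh : Rel h) : Rel (g * h) := by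
  constructor
  · calc (g * h)ᵀ * anti * (g * h) = hᵀ * (gᵀ * anti * g) * h := by
          rw [Matrix.transpose_mul]; simp only [Matrix.mul_assoc]
      _ = anti := by rw [hg.1, hh.1]
  · calc g * h * anti * (g * h)ᵀ = g * (h * anti * hᵀ) * gᵀ := by
          rw [Matrix.transpose_mul]; simp only [Matrix.mul_assoc]
      _ = anti := by rw [hh.2, hg.2]

theorem rel_anti : Rel (anti : Matrix (Fin 4) (Fin 4) R) :=
  ⟨by rw [anti_transpose, anti_mul_self, Matrix.one_mul],
    by rw [anti_transpose, anti_mul_self, Matrix.one_mul]⟩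

/-- The columns preserve the form. -/
theorem Rel.col {g : Matrix (Fin 4) (Fin 4) R} (h : Rel g) (i j : Fin 4) :
    g 0 i * g 3 j + g 1 i * g 2 j + g 2 i * g 1 j + g 3 i * g 0 j = anti i j := by
  have h1 := congrFun (congrFun h.1 i) j
  have e0 : ((3 : Fin 4) = Fin.rev 0) ∧ ((2 : Fin 4) = Fin.rev 1) ∧ ((1 : Fin 4) = Fin.rev 2) ∧
      ((0 : Fin 4) = Fin.rev 3) := by decide
  simp [Matrix.mul_apply, Fin.sum_univ_four, anti_apply, Fin.rev] at h1 ⊢
  linear_combination h1

theorem Rel.row {g : Matrix (Fin 4) (Fin 4) R} (h : Rel g) (k l : Fin 4) :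
    g k 0 * g l 3 + g k 1 * g l 2 + g k 2 * g l 1 + g k 3 * g l 0 = anti k l :=
  h.transpose.col k l

theorem star4_transpose (g : Matrix (Fin 4) (Fin 4) R) : star4 gᵀ = (star4 g)ᵀ := by
  ext p r
  simp only [star4, Matrix.of_apply, Matrix.transpose_apply]
  ring

theorem star4_one : star4 (1 : Matrix (Fin 4) (Fin 4) R) = 1 := by
  ext p r
  fin_cases p <;> fin_cases r <;> simp [star4, pairOf, Matrix.one_apply]

theorem star4_map {S : Type*} [CommRing S] (φ : R →+* S) (g : Matrix (Fin 4) (Fin 4) R) :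
    star4 (g.map φ) = (star4 g).map φ := by
  ext p r
  simp [star4]

variable [CharP R 2]

theorem star4_apply (g : Matrix (Fin 4) (Fin 4) R) (p r : Fin 4) :
    star4 g p r = g (pairOf p).1 (pairOf r).1 * g (pairOf p).2 (pairOf r).2 +
      g (pairOf p).2 (pairOf r).1 * g (pairOf p).1 (pairOf r).2 := by
  simp [star4, CharTwo.sub_eq_add]

theorem star4_anti : star4 (anti : Matrix (Fin 4) (Fin 4) R) = anti := by
  ext p r
  rw [star4_apply]
  fin_cases p <;> fin_cases r <;> simp [anti, pairOf, Fin.rev]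

/-- Multiplicativity on symplectic matrices. -/
theorem star4_mul {g h : Matrix (Fin 4) (Fin 4) R} (hg : Rel g) (hh : Rel h) :
    star4 (g * h) = star4 g * star4 h := by
  ext p r
  have h2 : (2 : R) = 0 := CharTwo.two_eq_zero
  have Rg := (hg.row (pairOf p).1 (pairOf p).2).trans (anti_pairOf p)
  have Rh := (hh.col (pairOf r).1 (pairOf r).2).trans (anti_pairOf r)
  simp only [Matrix.mul_apply, Fin.sum_univ_four, star4_apply]
  generalize (pairOf p).1 = k at *
  generalize (pairOf p).2 = l at *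
  generalize (pairOf r).1 = i at *
  generalize (pairOf r).2 = j at *
  simp [pairOf]
  linear_combination (h 0 i * h 3 j + h 3 i * h 0 j) * Rg + (g k 1 * g l 2 + g l 1 * g k 2) * Rh +
    ((g k 0 * g l 0 * h 0 i * h 0 j + g k 1 * g l 1 * h 1 i * h 1 j + g k 2 * g l 2 * h 2 i * h 2 j +
      g k 3 * g l 3 * h 3 i * h 3 j) -
      (g k 1 * g l 2 + g l 1 * g k 2) * (h 0 i * h 3 j + h 3 i * h 0 j)) * h2

theorem Rel.star {g : Matrix (Fin 4) (Fin 4) R} (hg : Rel g) : Rel (star4 g) := by
  constructor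
  · rw [← star4_transpose, ← star4_anti, ← star4_mul hg.transpose rel_anti,
      ← star4_mul (hg.transpose.mul rel_anti) hg, hg.1]
  · rw [← star4_transpose, ← star4_anti, ← star4_mul hg rel_anti,
      ← star4_mul (hg.mul rel_anti) hg.transpose, hg.2]

omit [CharP R 2] in
theorem sq_identity (h2 : (2 : R) = 0) {ai aj ak bi bj bk ci cj ck di dj dk : R}
    (Rjk : aj * dk + dj * ak + bj * ck + cj * bk = 1)
    (Rik : ai * dk + di * ak + bi * ck + ci * bk = 0)
    (Rij : ai * dj + di * aj + bi * cj + ci * bj = 0) :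
    (ai * bj + bi * aj) * (ai * ck + ci * ak) + (ai * bk + bi * ak) * (ai * cj + ci * aj) = ai ^ 2 := by
  linear_combination ai ^ 2 * Rjk + ai * aj * Rik + ai * ak * Rij +
    (aj * ak * bi * ci - (ai ^ 2 * aj * dk + ai ^ 2 * ak * dj + ai * aj * ak * di)) * h2

/-- The two indices other than `p` and its partner. -/
def oth : Fin 4 → Fin 4 × Fin 4 := ![(1, 2), (0, 3), (0, 3), (1, 2)]

omit [CharP R 2] in
theorem Rel.col' {g : Matrix (Fin 4) (Fin 4) R} (h : Rel g) (p i j : Fin 4) :
    g p i * g (Fin.rev p) j + g (Fin.rev p) i * g p j + g (oth p).1 i * g (oth p).2 j +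
      g (oth p).2 i * g (oth p).1 j = anti i j := by
  rw [← h.col i j]
  fin_cases p <;> simp [oth, Fin.rev] <;> ring

/-- The square of `star4` is the entrywise squaring. -/
theorem star4_star4 {g : Matrix (Fin 4) (Fin 4) R} (hg : Rel g) :
    star4 (star4 g) = g.map (fun x => x ^ 2) := by
  ext p r
  rw [Matrix.map_apply]
  have hjk : ∀ q : Fin 4, (anti : Matrix (Fin 4) (Fin 4) R) (oth q).1 (oth q).2 = 1 ∧
      (anti : Matrix (Fin 4) (Fin 4) R) q (oth q).1 = 0 ∧
      (anti : Matrix (Fin 4) (Fin 4) R) q (oth q).2 = 0 := by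
    intro q; fin_cases q <;> simp [anti, oth, Fin.rev]
  have key := sq_identity CharTwo.two_eq_zero
    ((hg.col' p (oth r).1 (oth r).2).trans (hjk r).1)
    ((hg.col' p r (oth r).2).trans (hjk r).2.2)
    ((hg.col' p r (oth r).1).trans (hjk r).2.1)
  rw [← key]
  simp only [star4_apply]
  fin_cases p <;> fin_cases r <;> simp [pairOf, oth] <;> ring

end CfsgLib.Parabolic.SpFour
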